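import Cfsg.Agent.S0819
import Cfsg.Agent.S0813
import Cfsg.Agent.S0249
import Cfsg.Agent.CIT.Spec

/-! Facts on `PSL(3,4)` and its automorphism group. -/

set_option autoImplicit false

namespace Cfsg.Agent.L34A

open Matrix Subgroup Cfsg.Agent.Class Cfsg.Agent.S0819 Cfsg.Agent.KSG
open scoped commutatorElement

theorem cert6 : ∀ a b c : GF4, c ≠ 0 → ∃ u v w d : GF4,
    let r := (X a b)^[6] (1, 0, 0) + (-c, 0, 0)
    (X a b)^[2] (1, 0, 0) = (d, 0, 0) + u • r + v • X a b r + w • X a b (X a b r) ∨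
    (X a b)^[3] (1, 0, 0) = (d, 0, 0) + u • r + v • X a b r + w • X a b (X a b r) := by
  decide +kernel

theorem model6 (x : ProjectiveSpecialLinearGroup (Fin 3) GF4) (hx : x ^ 6 = 1) :
    x ^ 2 = 1 ∨ x ^ 3 = 1 := by
  obtain ⟨g, rfl⟩ := QuotientGroup.mk_surjective x
  have h1 : g ^ 6 ∈ center (Matrix.SpecialLinearGroup (Fin 3) GF4) := by
    rw [← QuotientGroup.eq_one_iff, QuotientGroup.mk_pow, hx]
  obtain ⟨c, hc, e⟩ := Matrix.SpecialLinearGroup.mem_center_iff.1 h1
  have hc0 : c ≠ 0 := by rintro rfl; simp at hc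
  obtain ⟨a, b, h⟩ := cayley (g : Matrix (Fin 3) (Fin 3) GF4) g.2
  obtain ⟨u, v, w, d, hd⟩ := cert6 a b c hc0
  have hr : ev g ((X a b)^[6] (1, 0, 0) + (-c, 0, 0)) = 0 := by
    rw [ev_add, ev_iter h, ev_const, ← Matrix.SpecialLinearGroup.coe_pow, ← e]
    simp [scalar_apply, smul_one_eq_diagonal]
  refine hd.imp (fun hn => ?_) (fun hn => ?_) <;>
  · have := congrArg (ev g) hn
    rw [ev_iter h] at this
    generalize (X a b)^[6] (1, 0, 0) + (-c, 0, 0) = r at this hr
    simp only [ev_add, ev_smul, ev_X h, hr, ev_const, mul_zero, smul_zero, add_zero] at this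
    rw [← QuotientGroup.mk_pow, QuotientGroup.eq_one_iff]
    exact mem_center_of_eq (by rw [Matrix.SpecialLinearGroup.coe_pow, this])

theorem equiv_aut_of_char {X : Type*} [Group X] [Finite X] (hZ : center X = ⊥)
    (P : Subgroup (MulAut X)) [P.Normal] (hP : Inn X ≤ P) [((Inn X).subgroupOf P).Characteristic] :
    Nonempty (MulAut X ≃* MulAut P) := by
  have key : ∀ a : MulAut X, (∀ x, a * MulAut.conj x * a⁻¹ = MulAut.conj x) → a = 1 := fun a ha =>
    MulEquiv.ext fun x => by
      have : x⁻¹ * a x ∈ center X := mem_center_iff.2 fun y => by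
        have e := congrArg (fun b : MulAut X => b y) (ha x)
        simp only [MulAut.mul_apply, MulAut.conj_apply, map_mul, map_inv, MulAut.apply_inv_self] at e
        calc y * (x⁻¹ * a x) = x⁻¹ * (x * y * x⁻¹) * a x := by group
          _ = _ := by rw [← e]; group
      rw [hZ, mem_bot, inv_mul_eq_one] at this
      exact this.symm
  have i1 : Function.Injective (MulAut.conjNormal : MulAut X →* MulAut P) :=
    (injective_iff_map_eq_one _).2 fun a ha => key a fun x => by
      simpa using congrArg (fun b : MulAut P => (b ⟨_, hP ⟨x, rfl⟩⟩ : MulAut X)) ha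
  have i2 : Function.Injective (MulAut.characteristic ((Inn X).subgroupOf P)) :=
    (injective_iff_map_eq_one _).2 fun α hα => MulEquiv.ext fun p => by
      have h1 : ∀ q : P, q ∈ (Inn X).subgroupOf P → α q = q := fun q hq =>
        congrArg (fun b : MulAut ((Inn X).subgroupOf P) => (b ⟨q, hq⟩ : P)) hα
      have := key ((p⁻¹ * α p : P) : MulAut X) fun x => by
        have a := h1 ⟨_, hP ⟨x, rfl⟩⟩ ⟨x, rfl⟩
        have b := h1 (p * ⟨_, hP ⟨x, rfl⟩⟩ * p⁻¹) ((innNormal X).conj_mem _ ⟨x, rfl⟩ _)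
        rw [map_mul, map_mul, a, map_inv] at b
        have c := congrArg Subtype.val b
        simp only [coe_mul, coe_inv] at c ⊢
        calc _ = (p : MulAut X)⁻¹ * (α p * MulAut.conj x * (α p : MulAut X)⁻¹) * p := by group
          _ = _ := by rw [c]; group
      exact (inv_mul_eq_one.1 (Subtype.ext this)).symm
  have i3 : Function.Injective (MulAut.conj : X →* MulAut X) :=
    (injective_iff_map_eq_one _).2 fun x hx => mem_bot.1 (hZ ▸ mem_center_iff.2 fun y =>
      (mul_inv_eq_iff_eq_mul.1 (congrArg (fun b : MulAut X => b y) hx)).symm)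
  have e := MulAut.congr ((subgroupOfEquivOfLe hP).trans (MonoidHom.ofInjective i3).symm)
  exact ⟨MulEquiv.ofBijective _ ((Nat.bijective_iff_injective_and_card _).2 ⟨i1, le_antisymm
    (Nat.card_le_card_of_injective _ i1)
    ((Nat.card_le_card_of_injective _ i2).trans (Nat.card_congr e.toEquiv).le)⟩)⟩

variable {F : Type*} [Field F] [Fintype F] (hF : Fintype.card F = 4)
include hF

theorem no_six (x : ProjectiveSpecialLinearGroup (Fin 3) F) (hx : x ^ 6 = 1) :
    x ^ 2 = 1 ∨ x ^ 3 = 1 := by
  let e := pslCongr (Fin 3) (ringEquivGF4 hF)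
  simpa only [← map_pow, map_eq_one_iff _ e.injective] using model6 (e x) (by rw [← map_pow, hx, map_one])

theorem card_aut : Nat.card (MulAut (ProjectiveSpecialLinearGroup (Fin 3) F)) = 241920 := by
  have := Fact.mk Nat.prime_two
  have h := card_units_mul_card_PGL (ι := Fin 3) (R := F)
  rw [Nat.card_units, card_GL_field, Nat.card_eq_fintype_card, hF] at h
  rw [S0813.result 2 2 (by norm_num) hF 3 (by norm_num) (by norm_num)]
  simp [Fin.prod_univ_succ] at h ⊢
  omega

theorem aut_equiv : Nonempty (MulAut (ProjectiveSpecialLinearGroup (Fin 3) F) ≃*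
    MulAut (GL (Fin 3) F ⧸ center (GL (Fin 3) F))) := by
  have := S0249.result (F := F) 3 le_rfl
  have nc : ¬ IsMulCommutative (ProjectiveSpecialLinearGroup (Fin 3) F) := fun h => by
    have := @IsSimpleGroup.prime_card (ProjectiveSpecialLinearGroup (Fin 3) F)
      { mul_comm := h.is_comm.comm } this
    rw [CIT.card_L3_four hF] at this
    norm_num at this
  have := range_iotaL_normal (ι := Fin 3) (F := F) (by simp)
  have e : (Inn _).subgroupOf (iotaL (Fin 3) F).range = commutator _ := by
    refine le_antisymm ?_ ?_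
    · rintro ⟨_, hx⟩ ⟨x, rfl⟩
      have hc : commutator (ProjectiveSpecialLinearGroup (Fin 3) F) = ⊤ :=
        (inferInstance : (commutator _).Normal).eq_bot_or_eq_top.resolve_left fun e =>
          nc ((commutator_eq_bot_iff _).1 e)
      exact ((map_commutator ⊤ ⊤ (MulAut.conj.codRestrict _ fun y => inn_le_range_iotaL ⟨y, rfl⟩)).le.trans
        (commutator_mono le_top le_top)) ⟨x, hc.ge trivial, rfl⟩
    · rw [_root_.commutator_def, commutator_le]
      rintro ⟨_, g, rfl⟩ - ⟨_, k, rfl⟩ -
      rw [mem_subgroupOf]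
      change ⁅iotaL (Fin 3) F g, iotaL (Fin 3) F k⁆ ∈ _
      rw [← map_commutatorElement, iotaL_mem_inn_iff (by simp), map_commutatorElement,
        commutatorElement_eq_one_iff_mul_comm.2 (mul_comm _ _)]
      exact one_mem _
  have : ((Inn _).subgroupOf (iotaL (Fin 3) F).range).Characteristic := e ▸ inferInstance
  obtain ⟨f⟩ := equiv_aut_of_char (X := ProjectiveSpecialLinearGroup (Fin 3) F)
    ((inferInstance : (center _).Normal).eq_bot_or_eq_top.resolve_right fun e =>
      nc ⟨⟨fun a b => mem_center_iff.1 (e.ge (mem_top b)) a⟩⟩) _ inn_le_range_iotaL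
  exact ⟨f.trans (MulAut.congr ((QuotientGroup.quotientKerEquivRange _).symm.trans
    (QuotientGroup.quotientMulEquivOfEq (ker_iotaL (by simp)))))⟩

end Cfsg.Agent.L34A
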